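import Mathlib
import Cfsg.Agent.Lib.Helper73.SY.Defs

/-!
# Project SY (S2221), package IND
-/

set_option autoImplicit false
set_option linter.style.haveILetI false

namespace Cfsg.Agent.Lib.Helper80.SY

open Cfsg.Agent.Lib.Helper73.SY

/-- a nontrivial finite 2-subgroup has a nontrivial central element -/
theorem exists_central {G : Type} [Group G] [Finite G] (S : Subgroup G) (hS : IsPGroup 2 ↥S)
    (hne : S ≠ ⊥) : ∃ z ∈ S, z ≠ 1 ∧ ∀ s ∈ S, z * s = s * z := by
  haveI : Fact (Nat.Prime 2) := ⟨Nat.prime_two⟩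
  haveI : Nontrivial ↥S := (Subgroup.nontrivial_iff_ne_bot S).2 hne
  haveI := hS.center_nontrivial
  obtain ⟨z, hz⟩ := exists_ne (1 : ↥(Subgroup.center ↥S))
  refine ⟨((z : ↥S) : G), (z : ↥S).2, ?_, ?_⟩
  · intro h
    apply hz
    apply Subtype.ext
    apply Subtype.ext
    exact h
  · intro s hs
    have h1 := (Subgroup.mem_center_iff.1 z.2) ⟨s, hs⟩
    have h2 := congrArg Subtype.val h1
    exact h2.symm

/-- package IND -/
theorem lemInd : LemInd := by
  intro G _ _ P hP hdec
  obtain ⟨S₁, S₂, h1, h2, hS₁P, hS₂P, hcomm, hinf, hsup⟩ := hdec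
  obtain ⟨z₁, hz₁, hz₁1, hz₁c⟩ := exists_central S₁ (hP.to_le hS₁P) h1
  obtain ⟨z₂, hz₂, hz₂1, hz₂c⟩ := exists_central S₂ (hP.to_le hS₂P) h2
  refine ⟨z₁, hS₁P hz₁, z₂, hS₂P hz₂, hz₁1, hz₂1, ?_, ?_, ?_⟩
  · intro h
    have h3 : z₁ ∈ S₁ ⊓ S₂ := ⟨hz₁, h ▸ hz₂⟩
    rw [hinf, Subgroup.mem_bot] at h3
    exact hz₁1 h3
  · have hle : P ≤ Subgroup.centralizer ({z₁} : Set G) := by
      rw [← hsup]
      apply sup_le
      · intro s hs
        rw [Subgroup.mem_centralizer_singleton_iff]
        exact (hz₁c s hs).symm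
      · intro s hs
        rw [Subgroup.mem_centralizer_singleton_iff]
        exact (hcomm z₁ hz₁ s hs).symm
    intro p hp
    exact (Subgroup.mem_centralizer_singleton_iff.1 (hle hp)).symm
  · have hle : P ≤ Subgroup.centralizer ({z₂} : Set G) := by
      rw [← hsup]
      apply sup_le
      · intro s hs
        rw [Subgroup.mem_centralizer_singleton_iff]
        exact hcomm s hs z₂ hz₂
      · intro s hs
        rw [Subgroup.mem_centralizer_singleton_iff]
        exact (hz₂c s hs).symm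
    intro p hp
    exact (Subgroup.mem_centralizer_singleton_iff.1 (hle hp)).symm

end Cfsg.Agent.Lib.Helper80.SY
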