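import Mathlib
import Cfsg.Agent.Lib.Helper73.SY.Defs

/-!
# Project SY (S2221), package ST1: restrictions of the elements of a maximal 2-subgroup
-/

set_option autoImplicit false
set_option linter.style.haveILetI false

namespace Cfsg.Agent.Lib.Helper80.SY

open Cfsg.Agent.Lib.Helper73.SY Equiv

theorem perm_apply_inv {α : Type} (f : Perm α) (x : α) : f (f⁻¹ x) = x := by
  rw [← Perm.mul_apply, mul_inv_cancel, Perm.one_apply]

theorem perm_inv_apply {α : Type} (f : Perm α) (x : α) : f⁻¹ (f x) = x := by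
  rw [← Perm.mul_apply, inv_mul_cancel, Perm.one_apply]

/-- the permutations agreeing on `O` with an element of `Q` and fixing all other points -/
def restrSub {α : Type} (Q : Subgroup (Perm α)) (O : Finset α)
    (hQO : ∀ q ∈ Q, ∀ x ∈ O, q x ∈ O) : Subgroup (Perm α) where
  carrier := {r | ∃ q ∈ Q, (∀ x ∈ O, r x = q x) ∧ ∀ x, x ∉ O → r x = x}
  one_mem' := ⟨1, Q.one_mem, fun _ _ => rfl, fun _ _ => rfl⟩
  mul_mem' := by
    rintro r₁ r₂ ⟨q₁, hq₁, h1, h1'⟩ ⟨q₂, hq₂, h2, h2'⟩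
    refine ⟨q₁ * q₂, Q.mul_mem hq₁ hq₂, ?_, ?_⟩
    · intro x hx
      rw [Perm.mul_apply, Perm.mul_apply, h2 x hx, h1 _ (hQO q₂ hq₂ x hx)]
    · intro x hx
      rw [Perm.mul_apply, h2' x hx, h1' x hx]
  inv_mem' := by
    rintro r ⟨q, hq, h1, h1'⟩
    refine ⟨q⁻¹, Q.inv_mem hq, ?_, ?_⟩
    · intro x hx
      have hy : q⁻¹ x ∈ O := hQO q⁻¹ (Q.inv_mem hq) x hx
      rw [Perm.inv_eq_iff_eq, h1 _ hy, perm_apply_inv]
    · intro x hx
      rw [Perm.inv_eq_iff_eq, h1' x hx]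

theorem mem_restrSub {α : Type} {Q : Subgroup (Perm α)} {O : Finset α}
    {hQO : ∀ q ∈ Q, ∀ x ∈ O, q x ∈ O} {r : Perm α} :
    r ∈ restrSub Q O hQO ↔ ∃ q ∈ Q, (∀ x ∈ O, r x = q x) ∧ ∀ x, x ∉ O → r x = x := Iff.rfl

/-- package ST1 -/
theorem lemRestr : LemRestr := by
  intro α _ _ Q O hQ hQO q hq
  obtain ⟨hQ2, hQmax⟩ := hQ
  obtain ⟨R, hR⟩ : ∃ R : Subgroup (Perm α), R = restrSub Q O hQO := ⟨_, rfl⟩
  have hRmem : ∀ r, r ∈ R ↔ ∃ q ∈ Q, (∀ x ∈ O, r x = q x) ∧ ∀ x, x ∉ O → r x = x := by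
    intro r
    rw [hR]
    exact mem_restrSub
  -- `R` is a 2-group
  have hR2 : IsPGroup 2 ↥R := by
    rintro ⟨r, hr⟩
    obtain ⟨q₀, hq₀, h1, h1'⟩ := (hRmem r).1 hr
    obtain ⟨k, hk⟩ := hQ2 ⟨q₀, hq₀⟩
    have hk' : q₀ ^ 2 ^ k = 1 := congrArg Subtype.val hk
    refine ⟨k, ?_⟩
    apply Subtype.ext
    show r ^ 2 ^ k = 1
    have hpow : ∀ m : ℕ, (∀ x ∈ O, (r ^ m) x = (q₀ ^ m) x) ∧ ∀ x, x ∉ O → (r ^ m) x = x := by
      intro m
      induction m with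
      | zero => exact ⟨fun _ _ => rfl, fun _ _ => rfl⟩
      | succ m ih =>
        constructor
        · intro x hx
          rw [pow_succ, pow_succ, Perm.mul_apply, Perm.mul_apply, h1 x hx,
            ih.1 _ (hQO q₀ hq₀ x hx)]
        · intro x hx
          rw [pow_succ, Perm.mul_apply, h1' x hx, ih.2 x hx]
    ext x
    by_cases hx : x ∈ O
    · rw [(hpow (2 ^ k)).1 x hx, hk']
    · rw [(hpow (2 ^ k)).2 x hx]
      rfl
  -- `Q` normalizes `R`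
  have hnorm : Q ≤ Subgroup.normalizer (R : Set (Perm α)) := by
    have hconj : ∀ q₀ ∈ Q, ∀ r ∈ R, q₀ * r * q₀⁻¹ ∈ R := by
      intro q₀ hq₀ r hr
      obtain ⟨q₁, hq₁, h1, h1'⟩ := (hRmem r).1 hr
      rw [hRmem]
      refine ⟨q₀ * q₁ * q₀⁻¹, Q.mul_mem (Q.mul_mem hq₀ hq₁) (Q.inv_mem hq₀), ?_, ?_⟩
      · intro x hx
        have hy : q₀⁻¹ x ∈ O := hQO q₀⁻¹ (Q.inv_mem hq₀) x hx
        rw [Perm.mul_apply, Perm.mul_apply, Perm.mul_apply, Perm.mul_apply, h1 _ hy]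
      · intro x hx
        have hy : q₀⁻¹ x ∉ O := by
          intro h
          apply hx
          have h2 := hQO q₀ hq₀ _ h
          rw [perm_apply_inv] at h2
          exact h2
        rw [Perm.mul_apply, Perm.mul_apply, h1' _ hy, perm_apply_inv]
    intro q₀ hq₀
    rw [Subgroup.mem_normalizer_iff]
    intro r
    constructor
    · exact hconj q₀ hq₀ r
    · intro h
      have h2 := hconj q₀⁻¹ (Q.inv_mem hq₀) _ h
      have h3 : q₀⁻¹ * (q₀ * r * q₀⁻¹) * q₀⁻¹⁻¹ = r := by group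
      rw [h3] at h2
      exact h2
  have hsup : IsPGroup 2 ↥(Q ⊔ R) := IsPGroup.to_sup_of_normal_right' hQ2 hR2 hnorm
  have hRQ : R ≤ Q := by
    have h1 := hQmax (Q ⊔ R) hsup le_sup_left
    rw [← h1]
    exact le_sup_right
  -- the restriction of `q`
  have hiff : ∀ x, q x ∈ O ↔ x ∈ O := by
    intro x
    constructor
    · intro h
      have h2 := hQO q⁻¹ (Q.inv_mem hq) _ h
      rw [perm_inv_apply] at h2
      exact h2
    · exact hQO q hq x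
  obtain ⟨r, hr⟩ : ∃ r : Perm α, r = Perm.ofSubtype (Perm.subtypePerm q hiff) := ⟨_, rfl⟩
  have hr1 : ∀ x ∈ O, r x = q x := by
    intro x hx
    rw [hr, Perm.ofSubtype_apply_of_mem _ hx]
    rfl
  have hr2 : ∀ x, x ∉ O → r x = x := by
    intro x hx
    rw [hr, Perm.ofSubtype_apply_of_not_mem _ hx]
  exact ⟨r, hRQ ((hRmem r).2 ⟨q, hq, hr1, hr2⟩), hr1, hr2⟩

end Cfsg.Agent.Lib.Helper80.SY
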