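import Mathlib
import Cfsg.Agent.Lib.Helper73.SY.Defs
import Cfsg.Agent.Lib.Helper80.SY.Restr

/-!
# Project SY (S2221), package ST3: distinct orbits of a maximal 2-subgroup have distinct sizes

Counting proof: if `O ≠ O'` are orbits of `Q` of the same size, `F` the setwise stabilizer of
`X = O ∪ O'`, `x ∈ O`, then `|F : Q| = (|X| / |O|) * |F_x : Q_x| = 2 |F_x : Q_x|` is even, but
`Q` is a Sylow 2-subgroup of `F`.  (The hypotheses `LemRestr`, `LemPartSyl` are not needed.)
-/

set_option autoImplicit false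
set_option linter.style.haveILetI false

namespace Cfsg.Agent.Lib.Helper80.SY

open Cfsg.Agent.Lib.Helper73.SY Equiv

/-- the setwise stabilizer of a finite set -/
def setStab {α : Type} (X : Finset α) : Subgroup (Perm α) where
  carrier := {f | ∀ x, f x ∈ X ↔ x ∈ X}
  one_mem' := fun _ => Iff.rfl
  mul_mem' := by
    intro f g hf hg x
    rw [Perm.mul_apply, hf, hg]
  inv_mem' := by
    intro f hf x
    rw [← hf (f⁻¹ x), perm_apply_inv]

theorem mem_setStab {α : Type} {X : Finset α} {f : Perm α} :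
    f ∈ setStab X ↔ ∀ x, f x ∈ X ↔ x ∈ X := Iff.rfl

/-- package ST3 -/
theorem lemOrbDistinct_of (_hR : LemRestr) (_hP : LemPartSyl) : LemOrbDistinct := by
  intro α _ _ Q O O' hQ hOne _ hQO htrO hQO' htrO' hne hcard
  obtain ⟨hQ2, hQmax⟩ := hQ
  haveI : Fact (Nat.Prime 2) := ⟨Nat.prime_two⟩
  have hdisj : Disjoint O O' := by
    rw [Finset.disjoint_left]
    intro x hx hx'
    apply hne
    ext y
    constructor
    · intro hy
      obtain ⟨q, hq, hqx⟩ := htrO x hx y hy
      rw [← hqx]
      exact hQO' q hq x hx'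
    · intro hy
      obtain ⟨q, hq, hqx⟩ := htrO' x hx' y hy
      rw [← hqx]
      exact hQO q hq x hx
  obtain ⟨x, hx⟩ := hOne
  obtain ⟨X, hX⟩ : ∃ X : Finset α, X = O ∪ O' := ⟨_, rfl⟩
  have hXcard : X.card = 2 * O.card := by
    rw [hX, Finset.card_union_of_disjoint hdisj, ← hcard, two_mul]
  have hxX : x ∈ X := by rw [hX]; exact Finset.mem_union_left _ hx
  obtain ⟨F, hF⟩ : ∃ F : Subgroup (Perm α), F = setStab X := ⟨_, rfl⟩
  have hFmem : ∀ f, f ∈ F ↔ ∀ y, f y ∈ X ↔ y ∈ X := by
    intro f
    rw [hF]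
    exact Iff.rfl
  have hQF : Q ≤ F := by
    intro q hq
    rw [hFmem]
    intro y
    have key : ∀ q ∈ Q, ∀ y, y ∈ X → q y ∈ X := by
      intro q hq y hy
      rw [hX, Finset.mem_union] at hy ⊢
      rcases hy with h | h
      · exact Or.inl (hQO q hq y h)
      · exact Or.inr (hQO' q hq y h)
    constructor
    · intro h
      have h2 := key q⁻¹ (Q.inv_mem hq) _ h
      rw [perm_inv_apply] at h2
      exact h2
    · exact key q hq y
  have horbF : MulAction.orbit ↥F x = (↑X : Set α) := by
    ext y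
    rw [MulAction.mem_orbit_iff]
    constructor
    · rintro ⟨f, rfl⟩
      exact ((hFmem f).1 f.2 x).2 hxX
    · intro hy
      have hy' : y ∈ X := hy
      have hsw : swap x y ∈ F := by
        rw [hFmem]
        intro z
        by_cases hzx : z = x
        · rw [hzx, swap_apply_left]
          exact ⟨fun _ => hxX, fun _ => hy'⟩
        · by_cases hzy : z = y
          · rw [hzy, swap_apply_right]
            exact ⟨fun _ => hy', fun _ => hxX⟩
          · rw [swap_apply_of_ne_of_ne hzx hzy]
      exact ⟨⟨swap x y, hsw⟩, swap_apply_left x y⟩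
  have horbQ : MulAction.orbit ↥Q x = (↑O : Set α) := by
    ext y
    rw [MulAction.mem_orbit_iff]
    constructor
    · rintro ⟨q, rfl⟩
      exact hQO q q.2 x hx
    · intro hy
      obtain ⟨q, hq, hqx⟩ := htrO x hx y hy
      exact ⟨⟨q, hq⟩, hqx⟩
  have hcF : Nat.card ↥(MulAction.stabilizer ↥F x) * X.card = Nat.card ↥F := by
    have h1 := Subgroup.card_mul_index (MulAction.stabilizer ↥F x)
    rw [MulAction.index_stabilizer, horbF, Set.ncard_coe_finset] at h1
    exact h1
  have hcQ : Nat.card ↥(MulAction.stabilizer ↥Q x) * O.card = Nat.card ↥Q := by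
    have h1 := Subgroup.card_mul_index (MulAction.stabilizer ↥Q x)
    rw [MulAction.index_stabilizer, horbQ, Set.ncard_coe_finset] at h1
    exact h1
  have hdvd : Nat.card ↥(MulAction.stabilizer ↥Q x) ∣ Nat.card ↥(MulAction.stabilizer ↥F x) := by
    let φ : ↥(MulAction.stabilizer ↥Q x) →* ↥(MulAction.stabilizer ↥F x) :=
      { toFun := fun s => ⟨⟨((s : ↥Q) : Perm α), hQF (s : ↥Q).2⟩, by
            rw [MulAction.mem_stabilizer_iff]
            exact MulAction.mem_stabilizer_iff.1 s.2⟩
        map_one' := rfl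
        map_mul' := fun _ _ => rfl }
    apply Subgroup.card_dvd_of_injective φ
    intro a b hab
    apply Subtype.ext
    apply Subtype.ext
    exact congrArg (fun s : ↥(MulAction.stabilizer ↥F x) => ((s : ↥F) : Perm α)) hab
  -- `Q` is a Sylow 2-subgroup of `F`
  have hT2 : IsPGroup 2 ↥(Q.subgroupOf F) := by
    rw [← Subgroup.comap_subtype]
    exact hQ2.comap_subtype
  let P₀ : Sylow 2 ↥F :=
    { toSubgroup := Q.subgroupOf F
      isPGroup' := hT2
      is_maximal' := by
        intro R hR hle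
        have h1 : IsPGroup 2 ↥(R.map F.subtype) := hR.map _
        have h2 : Q ≤ R.map F.subtype := by
          intro q hq
          exact ⟨⟨q, hQF hq⟩, hle (Subgroup.mem_subgroupOf.2 hq), rfl⟩
        have h3 := hQmax _ h1 h2
        apply le_antisymm
        · intro r hr
          rw [Subgroup.mem_subgroupOf, ← h3]
          exact Subgroup.mem_map_of_mem _ hr
        · exact hle }
  have hodd : ¬ 2 ∣ (Q.subgroupOf F).index := P₀.not_dvd_index
  have hidx : Nat.card ↥Q * (Q.subgroupOf F).index = Nat.card ↥F := by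
    have h1 := Subgroup.card_mul_index (Q.subgroupOf F)
    rw [Nat.card_congr (Subgroup.subgroupOfEquivOfLe hQF).toEquiv] at h1
    exact h1
  obtain ⟨c, hc⟩ := hdvd
  have hm : 0 < O.card := Finset.card_pos.2 ⟨x, hx⟩
  have hs : 0 < Nat.card ↥(MulAction.stabilizer ↥Q x) := Nat.card_pos
  apply hodd
  refine ⟨c, ?_⟩
  have h1 : (Nat.card ↥(MulAction.stabilizer ↥Q x) * O.card) * (Q.subgroupOf F).index
      = (Nat.card ↥(MulAction.stabilizer ↥Q x) * O.card) * (2 * c) := by
    calc (Nat.card ↥(MulAction.stabilizer ↥Q x) * O.card) * (Q.subgroupOf F).index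
        = Nat.card ↥Q * (Q.subgroupOf F).index := by rw [hcQ]
      _ = Nat.card ↥F := hidx
      _ = Nat.card ↥(MulAction.stabilizer ↥F x) * X.card := hcF.symm
      _ = (Nat.card ↥(MulAction.stabilizer ↥Q x) * c) * (2 * O.card) := by rw [hc, hXcard]
      _ = (Nat.card ↥(MulAction.stabilizer ↥Q x) * O.card) * (2 * c) := by ring
  exact Nat.eq_of_mul_eq_mul_left (Nat.mul_pos hs hm) h1

end Cfsg.Agent.Lib.Helper80.SY
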