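import Mathlib
import Cfsg.Agent.Lib.Helper73.SY.Defs

/-!
# Project SY (S2221), package ST1b: the part of a maximal 2-subgroup on an invariant set
-/

set_option autoImplicit false
set_option linter.style.haveILetI false

namespace Cfsg.Agent.Lib.Helper80.SY

open Cfsg.Agent.Lib.Helper73.SY Equiv

theorem mem_part_iff {α : Type} (Q : Subgroup (Perm α)) (O : Finset α) (r : Perm α) :
    r ∈ part Q O ↔ r ∈ Q ∧ ∀ x, x ∉ O → r x = x := by
  unfold part
  rw [Subgroup.mem_inf, mem_fixingSubgroup_iff]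
  constructor
  · rintro ⟨h1, h2⟩
    exact ⟨h1, fun x hx => h2 x (by simpa using hx)⟩
  · rintro ⟨h1, h2⟩
    exact ⟨h1, fun x hx => h2 x (by simpa using hx)⟩

/-- package ST1b -/
theorem lemPartSyl_of (hRestr : LemRestr) : LemPartSyl := by
  intro α _ _ Q O hQ hQO R hR2 hRO hle
  obtain ⟨hQ2, hQmax⟩ := hQ
  obtain ⟨B, hB⟩ : ∃ B : Subgroup (Perm α), B = Q ⊓ fixingSubgroup (Perm α) (↑O : Set α) :=
    ⟨_, rfl⟩
  have hBmem : ∀ b, b ∈ B ↔ b ∈ Q ∧ ∀ x ∈ O, b x = x := by
    intro b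
    rw [hB, Subgroup.mem_inf, mem_fixingSubgroup_iff]
    rfl
  have hB2 : IsPGroup 2 ↥B := hQ2.to_le (by rw [hB]; exact inf_le_left)
  have hRpres : ∀ r ∈ R, ∀ x ∈ O, r x ∈ O := by
    intro r hr x hx
    by_contra h
    have h1 := hRO r hr (r x) h
    have h2 : r x = x := r.injective h1
    rw [h2] at h
    exact h hx
  have hBpres : ∀ b ∈ B, ∀ x, x ∉ O → b x ∉ O := by
    intro b hb x hx h
    have h1 := ((hBmem b).1 hb).2 (b x) h
    have h2 : b x = x := b.injective h1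
    rw [h2] at h
    exact hx h
  have hcomm : ∀ b ∈ B, ∀ r ∈ R, b * r = r * b := by
    intro b hb r hr
    ext x
    rw [Perm.mul_apply, Perm.mul_apply]
    by_cases hx : x ∈ O
    · rw [((hBmem b).1 hb).2 x hx, ((hBmem b).1 hb).2 _ (hRpres r hr x hx)]
    · rw [hRO r hr x hx, hRO r hr _ (hBpres b hb x hx)]
  have hnorm : B ≤ Subgroup.normalizer (R : Set (Perm α)) := by
    intro b hb
    rw [Subgroup.mem_normalizer_iff]
    intro r
    have key : ∀ r ∈ R, b * r * b⁻¹ = r := by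
      intro r hr
      rw [hcomm b hb r hr, mul_inv_cancel_right]
    constructor
    · intro hr
      rw [key r hr]
      exact hr
    · intro h
      have h4 : b * (b * r * b⁻¹) * b⁻¹ = b * r * b⁻¹ := key (b * r * b⁻¹) h
      have h5 : b * r * b⁻¹ = r := by
        apply mul_left_cancel (a := b)
        apply mul_right_cancel (b := b⁻¹)
        rw [← mul_assoc]
        exact h4
      rw [← h5]
      exact h
  have hsup : IsPGroup 2 ↥(B ⊔ R) := IsPGroup.to_sup_of_normal_right' hB2 hR2 hnorm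
  have hQle : Q ≤ B ⊔ R := by
    intro q hq
    obtain ⟨q', hq'Q, h1, h2⟩ := hRestr α Q O ⟨hQ2, hQmax⟩ hQO q hq
    have hq'R : q' ∈ R := hle ((mem_part_iff Q O q').2 ⟨hq'Q, h2⟩)
    have hb : q'⁻¹ * q ∈ B := by
      rw [hBmem]
      refine ⟨Q.mul_mem (Q.inv_mem hq'Q) hq, ?_⟩
      intro x hx
      rw [Perm.mul_apply, Perm.inv_eq_iff_eq, h1 x hx]
    have h3 : q = q' * (q'⁻¹ * q) := by group
    rw [h3]
    exact Subgroup.mul_mem _ (Subgroup.mem_sup_right hq'R) (Subgroup.mem_sup_left hb)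
  have heq := hQmax (B ⊔ R) hsup hQle
  apply le_antisymm
  · intro r hr
    rw [mem_part_iff]
    refine ⟨?_, hRO r hr⟩
    rw [← heq]
    exact Subgroup.mem_sup_right hr
  · exact hle

end Cfsg.Agent.Lib.Helper80.SY
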