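import Mathlib
import Cfsg.Agent.Lib.Helper73.SY.Defs
import Cfsg.Agent.Lib.Helper80.SY.Restr

/-!
# Project SY (S2221), package STRUCT: the orbit structure of a maximal 2-subgroup of
`Perm (Fin n)`
-/

set_option autoImplicit false
set_option linter.style.haveILetI false

namespace Cfsg.Agent.Lib.Helper80.SY

open Cfsg.Agent.Lib.Helper73.SY Equiv

/-- package STRUCT -/
theorem lemStruct_of (hR : LemRestr) (hC : LemOrbCyc) (hD : LemOrbDistinct) (hN : LemNum) :
    LemStruct := by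
  intro n Q hn hQ
  classical
  obtain ⟨hQ2, hQmax⟩ := hQ
  haveI : Fact (Nat.Prime 2) := ⟨Nat.prime_two⟩
  obtain ⟨orb, horb⟩ : ∃ orb : Fin n → Finset (Fin n), ∀ x y, y ∈ orb x ↔ ∃ q ∈ Q, q x = y :=
    ⟨fun x => Finset.univ.filter (fun y => ∃ q ∈ Q, q x = y), fun x y => by simp⟩
  have hself : ∀ x, x ∈ orb x := fun x => (horb x x).2 ⟨1, Q.one_mem, rfl⟩
  have hpres : ∀ x, ∀ q ∈ Q, ∀ y ∈ orb x, q y ∈ orb x := by
    intro x q hq y hy
    obtain ⟨q₁, hq₁, rfl⟩ := (horb x y).1 hy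
    exact (horb x _).2 ⟨q * q₁, Q.mul_mem hq hq₁, rfl⟩
  have htrans : ∀ x, ∀ y ∈ orb x, ∀ z ∈ orb x, ∃ q ∈ Q, q y = z := by
    intro x y hy z hz
    obtain ⟨q₁, hq₁, rfl⟩ := (horb x y).1 hy
    obtain ⟨q₂, hq₂, rfl⟩ := (horb x z).1 hz
    exact ⟨q₂ * q₁⁻¹, Q.mul_mem hq₂ (Q.inv_mem hq₁), by rw [Perm.mul_apply, perm_inv_apply]⟩
  have horb_eq : ∀ x y, y ∈ orb x → orb y = orb x := by
    intro x y hy
    obtain ⟨q₁, hq₁, rfl⟩ := (horb x y).1 hy
    ext z
    rw [horb, horb]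
    constructor
    · rintro ⟨q, hq, rfl⟩
      exact ⟨q * q₁, Q.mul_mem hq hq₁, rfl⟩
    · rintro ⟨q, hq, rfl⟩
      exact ⟨q * q₁⁻¹, Q.mul_mem hq (Q.inv_mem hq₁), by rw [Perm.mul_apply, perm_inv_apply]⟩
  have hpow : ∀ x, ∃ k : ℕ, (orb x).card = 2 ^ k := by
    intro x
    obtain ⟨k, hk⟩ := hQ2.card_orbit (α := Fin n) x
    refine ⟨k, ?_⟩
    rw [← hk]
    have hset : MulAction.orbit ↥Q x = (↑(orb x) : Set (Fin n)) := by
      ext y
      rw [MulAction.mem_orbit_iff, Finset.mem_coe, horb]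
      constructor
      · rintro ⟨q, rfl⟩
        exact ⟨q, q.2, rfl⟩
      · rintro ⟨q, hq, rfl⟩
        exact ⟨⟨q, hq⟩, rfl⟩
    rw [hset, Nat.card_coe_set_eq, Set.ncard_coe_finset]
  obtain ⟨All, hAlldef⟩ : ∃ All : Finset (Finset (Fin n)), All = Finset.univ.image orb :=
    ⟨_, rfl⟩
  have hAll : ∀ O, O ∈ All ↔ ∃ x, orb x = O := by
    intro O
    rw [hAlldef, Finset.mem_image]
    simp
  have hAllne : ∀ O ∈ All, O.Nonempty := by
    intro O hO
    obtain ⟨x, rfl⟩ := (hAll O).1 hO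
    exact ⟨x, hself x⟩
  have hAllpres : ∀ O ∈ All, ∀ q ∈ Q, ∀ y ∈ O, q y ∈ O := by
    intro O hO q hq y hy
    obtain ⟨x, rfl⟩ := (hAll O).1 hO
    exact hpres x q hq y hy
  have hAlltr : ∀ O ∈ All, ∀ y ∈ O, ∀ z ∈ O, ∃ q ∈ Q, q y = z := by
    intro O hO y hy z hz
    obtain ⟨x, rfl⟩ := (hAll O).1 hO
    exact htrans x y hy z hz
  have hAlleq : ∀ O ∈ All, ∀ x ∈ O, orb x = O := by
    intro O hO x hx
    obtain ⟨x', rfl⟩ := (hAll O).1 hO
    exact horb_eq x' x hx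
  have hAllpow : ∀ O ∈ All, O.card = 2 ^ Nat.log 2 O.card := by
    intro O hO
    obtain ⟨x, rfl⟩ := (hAll O).1 hO
    obtain ⟨k, hk⟩ := hpow x
    rw [hk, Nat.log_pow (by norm_num)]
  have hAlldist : ∀ O ∈ All, ∀ O' ∈ All, O ≠ O' → O.card ≠ O'.card := by
    intro O hO O' hO' hne
    exact hD (Fin n) Q O O' ⟨hQ2, hQmax⟩ (hAllne O hO) (hAllne O' hO')
      (fun q hq x hx => hAllpres O hO q hq x hx) (hAlltr O hO)
      (fun q hq x hx => hAllpres O' hO' q hq x hx) (hAlltr O' hO') hne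
  have hAlldisj : ∀ O ∈ All, ∀ O' ∈ All, O ≠ O' → Disjoint O O' := by
    intro O hO O' hO' hne
    rw [Finset.disjoint_left]
    intro z hz hz'
    exact hne ((hAlleq O hO z hz).symm.trans (hAlleq O' hO' z hz'))
  have hinj : ∀ O ∈ All, ∀ O' ∈ All, Nat.log 2 O.card = Nat.log 2 O'.card → O = O' := by
    intro O hO O' hO' heq
    by_contra hne
    apply hAlldist O hO O' hO' hne
    rw [hAllpow O hO, hAllpow O' hO', heq]
  have hsumAll : ∑ O ∈ All, O.card = n := by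
    have h1 : All.biUnion id = Finset.univ := by
      ext x
      simp only [Finset.mem_biUnion, id, Finset.mem_univ, iff_true]
      exact ⟨orb x, (hAll _).2 ⟨x, rfl⟩, hself x⟩
    have h2 := Finset.card_biUnion (s := All) (t := id)
      (fun O hO O' hO' hne => hAlldisj O hO O' hO' hne)
    rw [h1, Finset.card_univ, Fintype.card_fin] at h2
    exact h2.symm
  obtain ⟨s, hs⟩ : ∃ s : Finset ℕ, s = All.image (fun O => Nat.log 2 O.card) := ⟨_, rfl⟩
  have hsum : ∑ k ∈ s, 2 ^ k = n := by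
    rw [hs, Finset.sum_image hinj]
    refine (Finset.sum_congr rfl ?_).trans hsumAll
    intro O hO
    exact (hAllpow O hO).symm
  obtain ⟨hN1, hN2, hN3⟩ := hN s n hsum hn
  obtain ⟨𝒪, h𝒪⟩ : ∃ 𝒪 : Finset (Finset (Fin n)), 𝒪 = All.filter (fun O => 4 ≤ O.card) :=
    ⟨_, rfl⟩
  have h𝒪mem : ∀ O, O ∈ 𝒪 ↔ O ∈ All ∧ 4 ≤ O.card := by
    intro O
    rw [h𝒪, Finset.mem_filter]
  have hfilt : s.filter (fun k => 2 ≤ k) = 𝒪.image (fun O => Nat.log 2 O.card) := by
    ext k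
    rw [Finset.mem_filter, hs, Finset.mem_image, Finset.mem_image]
    constructor
    · rintro ⟨⟨O, hO, rfl⟩, hk⟩
      refine ⟨O, (h𝒪mem O).2 ⟨hO, ?_⟩, rfl⟩
      rw [hAllpow O hO]
      calc 4 = 2 ^ 2 := by norm_num
        _ ≤ 2 ^ Nat.log 2 O.card := Nat.pow_le_pow_right (by norm_num) hk
    · rintro ⟨O, hO, rfl⟩
      obtain ⟨hOA, h4⟩ := (h𝒪mem O).1 hO
      refine ⟨⟨O, hOA, rfl⟩, ?_⟩
      by_contra hlt
      push Not at hlt
      have h5 := hAllpow O hOA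
      have h6 : 2 ^ Nat.log 2 O.card ≤ 2 ^ 1 := Nat.pow_le_pow_right (by norm_num) (by omega)
      omega
  have hinj𝒪 : ∀ O ∈ 𝒪, ∀ O' ∈ 𝒪, Nat.log 2 O.card = Nat.log 2 O'.card → O = O' :=
    fun O hO O' hO' h => hinj O ((h𝒪mem O).1 hO).1 O' ((h𝒪mem O').1 hO').1 h
  have hsum𝒪 : ∑ O ∈ 𝒪, O.card = 4 * (n / 4) := by
    rw [← hN2, hfilt, Finset.sum_image hinj𝒪]
    apply Finset.sum_congr rfl
    intro O hO
    exact hAllpow O ((h𝒪mem O).1 hO).1
  have hcard𝒪 : 𝒪.card = (s.filter (fun k => 2 ≤ k)).card := by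
    rw [hfilt, Finset.card_image_of_injOn]
    intro O hO O' hO' h
    exact hinj𝒪 O hO O' hO' h
  have h1s : 1 ∈ s ↔ ∃ O ∈ All, O.card = 2 := by
    rw [hs, Finset.mem_image]
    constructor
    · rintro ⟨O, hO, h⟩
      refine ⟨O, hO, ?_⟩
      rw [hAllpow O hO, h]
      norm_num
    · rintro ⟨O, hO, h⟩
      refine ⟨O, hO, ?_⟩
      have h5 := hAllpow O hO
      rw [h] at h5
      have h6 : Nat.log 2 O.card = 1 := by
        rw [h]
        have h7 : (2 : ℕ) ^ 1 = 2 ^ Nat.log 2 2 := by simpa using h5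
        exact (Nat.pow_right_injective (le_refl 2) h7).symm
      exact h6
  obtain ⟨T, hTdef⟩ : ∃ T : Finset (Fin n),
      (T ∈ All ∧ T.card = 2) ∨ (T = ∅ ∧ ¬ ∃ O ∈ All, O.card = 2) := by
    by_cases h : ∃ O ∈ All, O.card = 2
    · obtain ⟨O, hO, hc⟩ := h
      exact ⟨O, Or.inl ⟨hO, hc⟩⟩
    · exact ⟨∅, Or.inr ⟨rfl, h⟩⟩
  refine ⟨𝒪, T, ?_, ?_, hsum𝒪, ?_⟩
  · refine ⟨hQ2, ?_, ?_, ?_, ?_, ?_, ?_, ?_⟩
    · intro O hO O' hO' hne
      exact hAlldisj O ((h𝒪mem O).1 hO).1 O' ((h𝒪mem O').1 hO').1 hne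
    · intro O hO
      rcases hTdef with ⟨hTA, hTc⟩ | ⟨hTe, _⟩
      · apply hAlldisj O ((h𝒪mem O).1 hO).1 T hTA
        intro h
        have h4 := ((h𝒪mem O).1 hO).2
        rw [h, hTc] at h4
        omega
      · rw [hTe]
        exact Finset.disjoint_empty_right O
    · intro q hq x hxT hx𝒪
      have hOA : orb x ∈ All := (hAll _).2 ⟨x, rfl⟩
      have hlt : (orb x).card < 4 := by
        by_contra h
        push Not at h
        exact hx𝒪 (orb x) ((h𝒪mem _).2 ⟨hOA, h⟩) (hself x)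
      obtain ⟨k, hk⟩ := hpow x
      have hk1 : k ≤ 1 := by
        by_contra h
        push Not at h
        have h5 : 2 ^ 2 ≤ 2 ^ k := Nat.pow_le_pow_right (by norm_num) h
        omega
      have hcard1 : (orb x).card = 1 := by
        interval_cases k
        · simpa using hk
        · exfalso
          have hc2 : (orb x).card = 2 := by simpa using hk
          rcases hTdef with ⟨hTA, hTc⟩ | ⟨_, hno⟩
          · have h6 : orb x = T := by
              by_contra hne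
              exact hAlldist _ hOA T hTA hne (by rw [hc2, hTc])
            exact hxT (h6 ▸ hself x)
          · exact hno ⟨orb x, hOA, hc2⟩
      obtain ⟨a, ha⟩ := Finset.card_eq_one.1 hcard1
      have hxa : x = a := by
        have h7 := hself x
        rw [ha, Finset.mem_singleton] at h7
        exact h7
      have hqa : q x = a := by
        have h7 := hpres x q hq x (hself x)
        rw [ha, Finset.mem_singleton] at h7
        exact h7
      rw [hqa, hxa]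
    · intro q hq O hO x hx
      exact hAllpres O ((h𝒪mem O).1 hO).1 q hq x hx
    · intro q hq O hO
      exact hR (Fin n) Q O ⟨hQ2, hQmax⟩
        (fun q hq x hx => hAllpres O ((h𝒪mem O).1 hO).1 q hq x hx) q hq
    · intro O hO
      obtain ⟨hOA, h4⟩ := (h𝒪mem O).1 hO
      have h5 := hC (Fin n) Q O ⟨hQ2, hQmax⟩ (by omega)
        (fun q hq x hx => hAllpres O hOA q hq x hx) (hAlltr O hOA)
      exact ⟨h4, h5.1, h5.2⟩
    · rcases hTdef with ⟨hTA, hTc⟩ | ⟨hTe, _⟩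
      · right
        obtain ⟨u, v, huv, hTuv⟩ := Finset.card_eq_two.1 hTc
        obtain ⟨-, a, ha, b, hb, hab, hsw⟩ := hC (Fin n) Q T ⟨hQ2, hQmax⟩ (by omega)
          (fun q hq x hx => hAllpres T hTA q hq x hx) (hAlltr T hTA)
        refine ⟨u, v, huv, hTuv, ?_⟩
        rw [hTuv, Finset.mem_insert, Finset.mem_singleton] at ha hb
        rcases ha with rfl | rfl <;> rcases hb with rfl | rfl
        · exact absurd rfl hab
        · exact hsw
        · rw [swap_comm]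
          exact hsw
        · exact absurd rfl hab
      · exact Or.inl hTe
  · rw [← hN1, h1s]
    rcases hTdef with ⟨hTA, hTc⟩ | ⟨hTe, hno⟩
    · constructor
      · intro _
        exact ⟨T, hTA, hTc⟩
      · intro _ h
        rw [h] at hTc
        simp at hTc
    · constructor
      · intro h
        exact absurd hTe h
      · intro h
        exact absurd h hno
  · rw [hcard𝒪]
    exact hN3

end Cfsg.Agent.Lib.Helper80.SY
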