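import Mathlib
import Cfsg.Agent.Lib.Helper73.SY.Defs

/-!
# Project SY (S2221), package BR: from a Sylow 2-subgroup of `A_n` to a maximal 2-subgroup of
`S_n`
-/

set_option autoImplicit false
set_option linter.style.haveILetI false

namespace Cfsg.Agent.Lib.Helper80.SY

open Cfsg.Agent.Lib.Helper73.SY Equiv

/-- package BR -/
theorem lemBridge : LemBridge := by
  intro n P
  haveI : Fact (Nat.Prime 2) := ⟨Nat.prime_two⟩
  obtain ⟨A, hA⟩ : ∃ A : Subgroup (Perm (Fin n)), A = alternatingGroup (Fin n) := ⟨_, rfl⟩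
  subst hA
  obtain ⟨P', hP'⟩ : ∃ P' : Subgroup (Perm (Fin n)),
      P' = (P : Subgroup ↥(alternatingGroup (Fin n))).map (alternatingGroup (Fin n)).subtype :=
    ⟨_, rfl⟩
  have hP'2 : IsPGroup 2 ↥P' := by
    rw [hP']
    exact P.isPGroup'.map _
  have hP'A : P' ≤ alternatingGroup (Fin n) := by
    rw [hP']
    exact Subgroup.map_subtype_le _
  obtain ⟨Q₀, hQ₀⟩ := hP'2.exists_le_sylow
  refine ⟨(Q₀ : Subgroup (Perm (Fin n))), ⟨Q₀.isPGroup', fun R hR hle => Q₀.is_maximal' hR hle⟩, ?_⟩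
  have hT2 : IsPGroup 2
      ↥(((Q₀ : Subgroup (Perm (Fin n))) ⊓ alternatingGroup (Fin n)).subgroupOf
        (alternatingGroup (Fin n))) := by
    rw [← Subgroup.comap_subtype]
    exact (Q₀.isPGroup'.to_le inf_le_left).comap_subtype
  have hPT : (P : Subgroup ↥(alternatingGroup (Fin n))) ≤
      ((Q₀ : Subgroup (Perm (Fin n))) ⊓ alternatingGroup (Fin n)).subgroupOf
        (alternatingGroup (Fin n)) := by
    intro x hx
    rw [Subgroup.mem_subgroupOf]
    refine ⟨hQ₀ ?_, x.2⟩
    rw [hP']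
    exact Subgroup.mem_map_of_mem _ hx
  have hTP := P.is_maximal' hT2 hPT
  have hkey : (Q₀ : Subgroup (Perm (Fin n))) ⊓ alternatingGroup (Fin n) = P' := by
    apply le_antisymm
    · intro y hy
      have h1 : (⟨y, hy.2⟩ : ↥(alternatingGroup (Fin n))) ∈
          ((Q₀ : Subgroup (Perm (Fin n))) ⊓ alternatingGroup (Fin n)).subgroupOf
            (alternatingGroup (Fin n)) := by
        rw [Subgroup.mem_subgroupOf]
        exact hy
      rw [hTP] at h1
      rw [hP']
      exact ⟨⟨y, hy.2⟩, h1, rfl⟩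
    · exact le_inf hQ₀ hP'A
  rw [hkey]
  constructor
  · rintro ⟨S₁, S₂, h1, h2, hS₁P, hS₂P, hcomm, hinf, hsup⟩
    refine ⟨S₁.map (alternatingGroup (Fin n)).subtype, S₂.map (alternatingGroup (Fin n)).subtype,
      ?_, ?_, ?_, ?_, ?_, ?_, ?_⟩
    · intro h
      exact h1 ((Subgroup.map_eq_bot_iff_of_injective _
        (alternatingGroup (Fin n)).subtype_injective).1 h)
    · intro h
      exact h2 ((Subgroup.map_eq_bot_iff_of_injective _
        (alternatingGroup (Fin n)).subtype_injective).1 h)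
    · rw [hP']
      exact Subgroup.map_mono hS₁P
    · rw [hP']
      exact Subgroup.map_mono hS₂P
    · rintro _ ⟨a, ha, rfl⟩ _ ⟨b, hb, rfl⟩
      exact congrArg Subtype.val (hcomm a ha b hb)
    · rw [← Subgroup.map_inf _ _ _ (alternatingGroup (Fin n)).subtype_injective, hinf,
        Subgroup.map_bot]
    · rw [← Subgroup.map_sup, hsup, hP']
  · rintro ⟨S₁, S₂, h1, h2, hS₁P, hS₂P, hcomm, hinf, hsup⟩
    have hS₁A : S₁ ≤ alternatingGroup (Fin n) := hS₁P.trans hP'A
    have hS₂A : S₂ ≤ alternatingGroup (Fin n) := hS₂P.trans hP'A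
    have hPeq : P'.subgroupOf (alternatingGroup (Fin n))
        = (P : Subgroup ↥(alternatingGroup (Fin n))) := by
      ext x
      rw [Subgroup.mem_subgroupOf, hP']
      constructor
      · rintro ⟨y, hy, hyx⟩
        have h3 : y = x := Subtype.ext hyx
        rw [← h3]
        exact hy
      · intro hx
        exact Subgroup.mem_map_of_mem _ hx
    refine ⟨S₁.subgroupOf (alternatingGroup (Fin n)), S₂.subgroupOf (alternatingGroup (Fin n)),
      ?_, ?_, ?_, ?_, ?_, ?_, ?_⟩
    · intro h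
      apply h1
      rw [← Subgroup.map_subgroupOf_eq_of_le hS₁A, h, Subgroup.map_bot]
    · intro h
      apply h2
      rw [← Subgroup.map_subgroupOf_eq_of_le hS₂A, h, Subgroup.map_bot]
    · rw [← hPeq]
      intro x hx
      rw [Subgroup.mem_subgroupOf] at hx ⊢
      exact hS₁P hx
    · rw [← hPeq]
      intro x hx
      rw [Subgroup.mem_subgroupOf] at hx ⊢
      exact hS₂P hx
    · intro a ha b hb
      exact Subtype.ext (hcomm a ha b hb)
    · rw [eq_bot_iff]
      intro x hx
      have h3 : (x : Perm (Fin n)) ∈ S₁ ⊓ S₂ := ⟨hx.1, hx.2⟩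
      rw [hinf, Subgroup.mem_bot] at h3
      rw [Subgroup.mem_bot]
      exact Subtype.ext h3
    · rw [← Subgroup.subgroupOf_sup hS₁A hS₂A, hsup, hPeq]

end Cfsg.Agent.Lib.Helper80.SY
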